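import Mathlib
import Cfsg.Agent.PGroup.Commutator
import Cfsg.Agent.PGroup.Frattini
import Cfsg.Agent.PGroup.CountIndex
import Cfsg.Agent.ConjFunctor.SmallExponent

/-!
Bounds on numbers of generators.
* A `p`-group (`p` odd) whose elements of order `p` are central needs at most `m` generators when
  it has at most `p ^ m` elements killed by `p`.
* A `p`-group of upper unitriangular `k × k` matrices needs at most `k * k / 4` generators: the
  possible leading positions that are not sums of two others form a triangle-free graph.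
-/

set_option autoImplicit false

open scoped commutatorElement

namespace CfsgLib.GeneratorBound

universe u

variable {p : ℕ} [hp : Fact p.Prime]

/-- The `p`-th power of a product when the commutator is central and killed by `p`. -/
theorem mul_pow_of_central {H : Type u} [Group H] (hp2 : p ≠ 2) (a b : H)
    (hc : ⁅b⁻¹, a⁻¹⁆ ∈ Subgroup.center H) (hcp : ⁅b⁻¹, a⁻¹⁆ ^ p = 1) :
    (a * b) ^ p = a ^ p * b ^ p := by
  have hyx : b * a = a * b * ⁅b⁻¹, a⁻¹⁆ := by rw [commutatorElement_def]; group
  rw [CfsgLib.ConjFunctor.mul_pow_of_commute_commutator hyx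
    (Subgroup.mem_center_iff.1 hc a).symm (Subgroup.mem_center_iff.1 hc b).symm p]
  obtain ⟨t, ht⟩ := CfsgLib.PGroup.dvd_choose_two_of_odd (hp.out.odd_of_ne_two hp2)
  rw [ht, pow_mul, hcp, one_pow, mul_one]

/-- If elements of order `p` are central and `x ^ p` is killed by `p`, then so is `⁅x, y⁆`. -/
theorem comm_pow_eq_one (hp2 : p ≠ 2) (n : ℕ) : ∀ (H : Type u) [Group H] [Finite H],
    Nat.card H = n → IsPGroup p H → (∀ x : H, x ^ p = 1 → x ∈ Subgroup.center H) →
    ∀ x y : H, (x ^ p) ^ p = 1 → ⁅x, y⁆ ^ p = 1 := by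
  induction n using Nat.strong_induction_on with
  | _ n ih =>
  intro H _ _ hn hH hΩ x y hx
  by_cases htop : Subgroup.zpowers x = ⊤
  · obtain ⟨i, rfl⟩ := Subgroup.mem_zpowers_iff.1 (htop.ge (Subgroup.mem_top y))
    rw [commutatorElement_eq_one_iff_mul_comm.2 ((Commute.refl x).zpow_right i).eq, one_pow]
  obtain ⟨M, hM, hle⟩ := (eq_top_or_exists_le_coatom (Subgroup.zpowers x)).resolve_left htop
  haveI := CfsgLib.PGroup.normal_of_coatom hH hM
  have hxM : x ∈ M := hle (Subgroup.mem_zpowers x)
  have hyM : y * x * y⁻¹ ∈ M := Subgroup.Normal.conj_mem inferInstance x hxM y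
  have hlt : Nat.card ↥M < n := by
    rw [← hn]
    have hi := CfsgLib.PGroup.index_of_coatom hH hM
    rw [← M.card_mul_index, hi]
    exact lt_mul_of_one_lt_right Nat.card_pos hp.out.one_lt
  have hb : (y * x * y⁻¹) ^ p = x ^ p := by
    rw [conj_pow, Subgroup.mem_center_iff.1 (hΩ _ hx) y, mul_inv_cancel_right]
  have key : ∀ c ∈ M, ∀ d ∈ M, (c ^ p) ^ p = 1 → ⁅c, d⁆ ^ p = 1 := by
    intro c hc d hd hcp
    have h := ih _ hlt ↥M rfl (hH.to_subgroup M)
      (fun z hz => Subgroup.mem_center_iff.2 fun w => Subtype.ext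
        (Subgroup.mem_center_iff.1 (hΩ (z : H) (congrArg Subtype.val hz)) (w : H)))
      ⟨c, hc⟩ ⟨d, hd⟩ (Subtype.ext hcp)
    exact congrArg Subtype.val h
  have h1 : ⁅(y * x * y⁻¹)⁻¹, x⁻¹⁻¹⁆ ^ p = 1 :=
    key _ (inv_mem hyM) _ (by simpa using hxM) (by rw [inv_pow, hb, inv_pow, hx, inv_one])
  have h2 := mul_pow_of_central hp2 x⁻¹ (y * x * y⁻¹) (hΩ _ h1) h1
  rw [inv_pow, hb, inv_mul_cancel] at h2
  have e : ⁅x, y⁆ = (x * (x⁻¹ * (y * x * y⁻¹)) * x⁻¹)⁻¹ := by rw [commutatorElement_def]; group
  rw [e, inv_pow, conj_pow, h2, mul_one, mul_inv_cancel, inv_one]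

/-- Generators of a group all of whose elements of order `p` are central. -/
theorem exists_generators_of_central_aux (hp2 : p ≠ 2) (n : ℕ) : ∀ (H : Type u) [Group H]
    [Finite H], Nat.card H = n → IsPGroup p H → (∀ x : H, x ^ p = 1 → x ∈ Subgroup.center H) →
    ∀ m : ℕ, Nat.card {x : H // x ^ p = 1} ≤ p ^ m →
      ∃ S : Finset H, S.card ≤ m ∧ Subgroup.closure (S : Set H) = ⊤ := by
  induction n using Nat.strong_induction_on with
  | _ n ih =>
  intro H _ _ hn hH hΩ m hm
  classical
  rcases subsingleton_or_nontrivial H with hs | hs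
  · exact ⟨∅, by simp, Subsingleton.elim _ _⟩
  let W : Subgroup H :=
    { carrier := {x | x ^ p = 1}
      one_mem' := one_pow _
      mul_mem' := fun {a b} ha hb => by
        show (a * b) ^ p = 1
        rw [(show Commute a b from (Subgroup.mem_center_iff.1 (hΩ a ha) b).symm).mul_pow]
        rw [show a ^ p = 1 from ha, show b ^ p = 1 from hb, one_mul]
      inv_mem' := fun {a} ha => by
        show a⁻¹ ^ p = 1
        rw [inv_pow, show a ^ p = 1 from ha, inv_one] }
  have hWZ : W ≤ Subgroup.center H := fun x hx => hΩ x hx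
  haveI : W.Normal := ⟨fun x hx g => by
    rw [Subgroup.mem_center_iff.1 (hWZ hx) g, mul_inv_cancel_right]; exact hx⟩
  have hW1 : W ≠ ⊥ := by
    obtain ⟨k, hk⟩ := IsPGroup.iff_card.1 hH
    obtain ⟨z, hz⟩ := exists_prime_orderOf_dvd_card' (G := H) p (by
      rcases k with _ | k
      · rw [pow_zero] at hk
        exact absurd hk (Finite.one_lt_card (α := H)).ne'
      · rw [hk]; exact dvd_pow_self p k.succ_ne_zero)
    intro h
    have : z ∈ W := (hz ▸ pow_orderOf_eq_one z : z ^ p = 1)
    rw [h, Subgroup.mem_bot] at this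
    rw [this, orderOf_one] at hz
    exact hp.out.ne_one hz.symm
  have hWm : Nat.card ↥W ≤ p ^ m := hm
  by_cases hWΦ : W ≤ frattini H
  · -- pass to the quotient
    have hlt : Nat.card (H ⧸ W) < n := by
      rw [← hn, ← W.index_mul_card, Subgroup.index_eq_card]
      exact lt_mul_of_one_lt_right Nat.card_pos
        (Finite.one_lt_card_iff_nontrivial.2 ((Subgroup.nontrivial_iff_ne_bot W).2 hW1))
    let Ω2 : Subgroup H :=
      { carrier := {x | (x ^ p) ^ p = 1}
        one_mem' := by simp
        mul_mem' := fun {a b} ha hb => by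
          show ((a * b) ^ p) ^ p = 1
          have hb' : ((b⁻¹) ^ p) ^ p = 1 := by rw [inv_pow, inv_pow, show _ = (1 : H) from hb, inv_one]
          have hc := comm_pow_eq_one hp2 _ H rfl hH hΩ b⁻¹ a⁻¹ hb'
          rw [mul_pow_of_central hp2 a b (hΩ _ hc) hc,
            (show Commute (a ^ p) (b ^ p) from (Subgroup.mem_center_iff.1 (hΩ _ ha) _).symm).mul_pow,
            show (a ^ p) ^ p = 1 from ha, show (b ^ p) ^ p = 1 from hb, one_mul]
        inv_mem' := fun {a} ha => by
          show ((a⁻¹) ^ p) ^ p = 1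
          rw [inv_pow, inv_pow, show (a ^ p) ^ p = 1 from ha, inv_one] }
    let φ : ↥Ω2 →* ↥W :=
      { toFun := fun x => ⟨(x : H) ^ p, x.2⟩
        map_one' := Subtype.ext (one_pow _)
        map_mul' := fun a b => Subtype.ext (by
          have hc := comm_pow_eq_one hp2 _ H rfl hH hΩ ((b : H))⁻¹ ((a : H))⁻¹
            (by rw [inv_pow, inv_pow, show ((b : H) ^ p) ^ p = 1 from b.2, inv_one])
          exact mul_pow_of_central hp2 (a : H) b (hΩ _ hc) hc) }
    have hWΩ : W ≤ Ω2 := fun x hx => by
      show (x ^ p) ^ p = 1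
      rw [show x ^ p = 1 from hx, one_pow]
    have hker : φ.ker = W.subgroupOf Ω2 := by
      ext x
      rw [MonoidHom.mem_ker, Subgroup.mem_subgroupOf, Subtype.ext_iff]
      rfl
    have hmap : Nat.card ↥(Ω2.map (QuotientGroup.mk' W)) ≤ Nat.card ↥W := by
      let ψ : ↥Ω2 →* H ⧸ W := (QuotientGroup.mk' W).comp Ω2.subtype
      have hψ : ψ.ker = φ.ker := by
        rw [hker]; ext x
        simp [ψ, Subgroup.mem_subgroupOf]
      have hψr : ψ.range = Ω2.map (QuotientGroup.mk' W) := by
        simp [ψ, MonoidHom.range_comp, Subgroup.range_subtype]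
      rw [← hψr, ← Subgroup.index_ker, hψ, Subgroup.index_ker]
      exact Subgroup.card_le_card_group _
    have hΩq : ∀ x : H ⧸ W, x ^ p = 1 → x ∈ Subgroup.center (H ⧸ W) := by
      intro x hx
      obtain ⟨a, rfl⟩ := QuotientGroup.mk'_surjective W x
      rw [← map_pow, QuotientGroup.mk'_apply, QuotientGroup.eq_one_iff] at hx
      refine Subgroup.mem_center_iff.2 fun y => ?_
      obtain ⟨b, rfl⟩ := QuotientGroup.mk'_surjective W y
      symm
      rw [← commutatorElement_eq_one_iff_mul_comm, ← map_commutatorElement]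
      exact (QuotientGroup.eq_one_iff _).2 (comm_pow_eq_one hp2 _ H rfl hH hΩ a b hx)
    have hcq : Nat.card {x : H ⧸ W // x ^ p = 1} ≤ p ^ m := by
      refine le_trans ?_ (hmap.trans hWm)
      refine Nat.card_le_card_of_injective
        (fun x => (⟨x.1, ?_⟩ : ↥(Ω2.map (QuotientGroup.mk' W))))
        (fun a b h => Subtype.ext (congrArg (fun z : ↥(Ω2.map (QuotientGroup.mk' W)) => (z : H ⧸ W)) h))
      obtain ⟨a, ha⟩ := QuotientGroup.mk'_surjective W x.1
      refine ⟨a, ?_, ha⟩
      have hx := x.2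
      rw [← ha, ← map_pow, QuotientGroup.mk'_apply, QuotientGroup.eq_one_iff] at hx
      exact hx
    obtain ⟨S, hS, hcl⟩ := ih _ hlt (H ⧸ W) rfl (hH.to_quotient W) hΩq m hcq
    refine ⟨S.image Quotient.out, le_trans Finset.card_image_le hS, frattini_nongenerating ?_⟩
    rw [eq_top_iff]
    have hmap' : (Subgroup.closure ((S.image Quotient.out : Finset H) : Set H)).map
        (QuotientGroup.mk' W) = ⊤ := by
      rw [MonoidHom.map_closure, ← hcl]
      congr 1
      rw [Finset.coe_image, Set.image_image]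
      simp
    intro h _
    obtain ⟨c, hc, hce⟩ := hmap'.ge (Subgroup.mem_top (QuotientGroup.mk' W h))
    have hcw : c⁻¹ * h ∈ W := QuotientGroup.eq.1 hce
    have := mul_mem (Subgroup.mem_sup_left hc : c ∈ Subgroup.closure
      ((S.image Quotient.out : Finset H) : Set H) ⊔ frattini H) (Subgroup.mem_sup_right (hWΦ hcw))
    simpa using this
  · -- split off a central element
    obtain ⟨w, hw, hwΦ⟩ := SetLike.not_le_iff_exists.1 hWΦ
    rw [CfsgLib.PGroup.mem_frattini_iff] at hwΦ
    push Not at hwΦ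
    obtain ⟨M, hM, hwM⟩ := hwΦ
    have hlt : Nat.card ↥M < n := by
      rw [← hn, ← M.card_mul_index, CfsgLib.PGroup.index_of_coatom hH hM]
      exact lt_mul_of_one_lt_right Nat.card_pos hp.out.one_lt
    have hWMlt : M ⊓ W < W := lt_of_le_of_ne inf_le_right fun h => hwM (h.ge hw).1
    obtain ⟨k, hk⟩ := IsPGroup.iff_card.1 (hH.to_subgroup W)
    obtain ⟨j, hj, hjc⟩ := (Nat.dvd_prime_pow hp.out).1 (hk ▸ Subgroup.card_dvd_of_le hWMlt.le)
    have hjk : j < k := by
      rcases lt_or_eq_of_le hj with h | h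
      · exact h
      · exact absurd (Subgroup.eq_of_le_of_card_ge hWMlt.le (by rw [hk, hjc, h])) hWMlt.ne
    have hkm : k ≤ m := by
      rw [hk] at hWm
      exact (Nat.pow_le_pow_iff_right hp.out.one_lt).1 hWm
    obtain ⟨S, hS, hcl⟩ := ih _ hlt ↥M rfl (hH.to_subgroup M)
      (fun z hz => Subgroup.mem_center_iff.2 fun v => Subtype.ext
        (Subgroup.mem_center_iff.1 (hΩ (z : H) (congrArg Subtype.val hz)) (v : H)))
      (m - 1) (by
        refine le_trans ?_ (Nat.pow_le_pow_right hp.out.pos (by omega : j ≤ m - 1))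
        rw [← hjc]
        refine Nat.card_le_card_of_injective
          (fun x => (⟨(x.1 : H), x.1.2, congrArg Subtype.val x.2⟩ : ↥(M ⊓ W))) fun a b h => ?_
        exact Subtype.ext (Subtype.ext (congrArg (fun z : ↥(M ⊓ W) => (z : H)) h)))
    refine ⟨insert w (S.image Subtype.val), ?_, ?_⟩
    · refine (Finset.card_insert_le _ _).trans ?_
      have := Finset.card_image_le (s := S) (f := Subtype.val)
      omega
    · rw [Finset.coe_insert, Finset.coe_image, Set.insert_eq, Subgroup.closure_union]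
      have hMcl : Subgroup.closure (Subtype.val '' (S : Set ↥M)) = M := by
        rw [← M.coe_subtype, ← MonoidHom.map_closure, hcl, ← MonoidHom.range_eq_map,
          Subgroup.range_subtype]
      rw [hMcl]
      refine hM.2 _ (lt_of_le_of_ne le_sup_right fun h => hwM ?_)
      rw [h]
      exact Subgroup.mem_sup_left (Subgroup.subset_closure rfl)

/-- Generators of a group all of whose elements of order `p` are central. -/
theorem exists_generators_of_central {H : Type u} [Group H] [Finite H] (hp2 : p ≠ 2)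
    (hH : IsPGroup p H) (hΩ : ∀ x : H, x ^ p = 1 → x ∈ Subgroup.center H) {m : ℕ}
    (hm : Nat.card {x : H // x ^ p = 1} ≤ p ^ m) :
    ∃ S : Finset H, S.card ≤ m ∧ Subgroup.closure (S : Set H) = ⊤ :=
  exists_generators_of_central_aux hp2 _ H rfl hH hΩ m hm

/-! ### Unitriangular groups -/

variable {k : ℕ}

/-- The order on positions: first by the distance to the diagonal, then by the row. -/
def key (k : ℕ) (s : Fin k × Fin k) : ℕ := (s.2.1 - s.1.1) * k + s.1.1

theorem key_lt_key {s t : Fin k × Fin k} (h : s.2.1 - s.1.1 < t.2.1 - t.1.1) : key k s < key k t :=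
  calc key k s < (s.2.1 - s.1.1) * k + k := Nat.add_lt_add_left s.1.2 _
    _ = (s.2.1 - s.1.1 + 1) * k := (Nat.succ_mul _ _).symm
    _ ≤ (t.2.1 - t.1.1) * k := Nat.mul_le_mul_right k h
    _ ≤ key k t := Nat.le_add_right _ _

theorem key_inj {s t : Fin k × Fin k} (hs : s.1.1 < s.2.1) (ht : t.1.1 < t.2.1)
    (h : key k s = key k t) : s = t := by
  rcases lt_trichotomy (s.2.1 - s.1.1) (t.2.1 - t.1.1) with h1 | h1 | h1
  · exact absurd h (key_lt_key h1).ne
  · unfold key at h
    rw [h1] at h
    have h2 : s.1.1 = t.1.1 := Nat.add_left_cancel h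
    exact Prod.ext (Fin.ext h2) (Fin.ext (by omega))
  · exact absurd h (key_lt_key h1).ne'

theorem key_le_iff {s t : Fin k × Fin k} (hs : s.1.1 < s.2.1) (ht : t.1.1 < t.2.1)
    (h : key k s ≤ key k t) :
    s.2.1 - s.1.1 < t.2.1 - t.1.1 ∨ (s.2.1 - s.1.1 = t.2.1 - t.1.1 ∧ s.1.1 ≤ t.1.1) := by
  rcases lt_trichotomy (s.2.1 - s.1.1) (t.2.1 - t.1.1) with h1 | h1 | h1
  · exact Or.inl h1
  · refine Or.inr ⟨h1, ?_⟩
    unfold key at h
    rw [h1] at h
    exact Nat.le_of_add_le_add_left h
  · exact absurd h (key_lt_key h1).not_ge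

variable {R : Type*} [CommRing R]

/-- Strictly upper triangular, with all entries before `m` equal to zero. -/
def Low (m : ℕ) (A : Matrix (Fin k) (Fin k) R) : Prop :=
  ∀ i j : Fin k, A i j ≠ 0 → i.1 < j.1 ∧ m ≤ key k (i, j)

theorem Low.mono {m m' : ℕ} {A : Matrix (Fin k) (Fin k) R} (h : Low m A) (hm : m' ≤ m) :
    Low m' A := fun i j hij => ⟨(h i j hij).1, hm.trans (h i j hij).2⟩

/-- A product with a strictly upper triangular matrix moves strictly beyond `m`. -/
theorem mul_apply_eq_zero {m : ℕ} {A B : Matrix (Fin k) (Fin k) R} (hA : Low m A) (hB : Low 0 B)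
    {i j : Fin k} (h : key k (i, j) ≤ m) : (A * B) i j = 0 := by
  rw [Matrix.mul_apply]
  refine Finset.sum_eq_zero fun t _ => ?_
  by_contra hne
  obtain ⟨h1, h2⟩ := hA i t (left_ne_zero_of_mul hne)
  obtain ⟨h3, -⟩ := hB t j (right_ne_zero_of_mul hne)
  have := key_lt_key (s := (i, t)) (t := (i, j)) (show t.1 - i.1 < j.1 - i.1 by omega)
  omega

theorem Low.mul {m : ℕ} {A B : Matrix (Fin k) (Fin k) R} (hA : Low m A) (hB : Low 0 B) :
    Low m (A * B) := by
  intro i j hne
  refine ⟨?_, ?_⟩
  · rw [Matrix.mul_apply] at hne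
    obtain ⟨t, -, ht⟩ := Finset.exists_ne_zero_of_sum_ne_zero hne
    have := (hA i t (left_ne_zero_of_mul ht)).1
    have := (hB t j (right_ne_zero_of_mul ht)).1
    omega
  · by_contra hlt
    exact hne (mul_apply_eq_zero hA hB (not_le.1 hlt).le)

theorem Low.add {m : ℕ} {A B : Matrix (Fin k) (Fin k) R} (hA : Low m A) (hB : Low m B) :
    Low m (A + B) := by
  intro i j hne
  rcases ne_or_eq (A i j) 0 with h | h
  · exact hA i j h
  · exact hB i j (fun h' => hne (by rw [Matrix.add_apply, h, h', add_zero]))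

/-- The leading entry of a product of two matrices with consecutive leading positions. -/
theorem mul_leading {A B : Matrix (Fin k) (Fin k) R} {i l j : Fin k} (hil : i.1 < l.1)
    (hlj : l.1 < j.1) (hA : Low (key k (i, l)) A) (hB : Low (key k (l, j)) B)
    {i' j' : Fin k} (h : key k (i', j') ≤ key k (i, j)) :
    (A * B) i' j' = (if (i', j') = (i, j) then A i l * B l j else 0) ∧ (B * A) i' j' = 0 := by
  have term : ∀ t, A i' t * B t j' ≠ 0 → i' = i ∧ t = l ∧ j' = j := by
    intro t hne
    obtain ⟨h1, h2⟩ := hA i' t (left_ne_zero_of_mul hne)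
    obtain ⟨h3, h4⟩ := hB t j' (right_ne_zero_of_mul hne)
    have k1 := key_le_iff (s := (i, l)) (t := (i', t)) hil h1 h2
    have k2 := key_le_iff (s := (l, j)) (t := (t, j')) hlj h3 h4
    have k3 := key_le_iff (s := (i', j')) (t := (i, j))
      (show i'.1 < j'.1 by omega) (show i.1 < j.1 by omega) h
    simp only at k1 k2 k3
    refine ⟨Fin.ext ?_, Fin.ext ?_, Fin.ext ?_⟩ <;> omega
  refine ⟨?_, ?_⟩
  · rw [Matrix.mul_apply]
    split_ifs with he
    · obtain ⟨rfl, rfl⟩ := Prod.mk.inj he
      refine Finset.sum_eq_single l (fun t _ ht => ?_) (by simp)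
      by_contra hne
      exact ht (term t hne).2.1
    · refine Finset.sum_eq_zero fun t _ => ?_
      by_contra hne
      obtain ⟨rfl, -, rfl⟩ := term t hne
      exact he rfl
  · rw [Matrix.mul_apply]
    refine Finset.sum_eq_zero fun t _ => ?_
    by_contra hne
    obtain ⟨h1, h2⟩ := hB i' t (left_ne_zero_of_mul hne)
    obtain ⟨h3, h4⟩ := hA t j' (right_ne_zero_of_mul hne)
    have k1 := key_le_iff (s := (i, l)) (t := (t, j')) hil h3 h4
    have k2 := key_le_iff (s := (l, j)) (t := (i', t)) hlj h1 h2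
    have k3 := key_le_iff (s := (i', j')) (t := (i, j))
      (show i'.1 < j'.1 by omega) (show i.1 < j.1 by omega) h
    simp only at k1 k2 k3
    omega

/-- At most `k * k / 4` generators for a `p`-group of unitriangular matrices, modulo the kernel. -/
theorem exists_generators_unitriangular {H : Type u} [Group H] [Finite H] (hH : IsPGroup p H)
    (f : H →* Matrix (Fin k) (Fin k) (ZMod p)) (hf : ∀ h, Low 0 (f h - 1)) :
    ∃ S : Finset H, S.card ≤ k * k / 4 ∧ Subgroup.closure (S : Set H) ⊔ f.ker = ⊤ := by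
  classical
  let Lead : Fin k × Fin k → H → Prop := fun s h => Low (key k s) (f h - 1) ∧ (f h - 1) s.1 s.2 ≠ 0
  let LS : Fin k × Fin k → Prop := fun s => ∃ h, Lead s h
  have hLS : ∀ s, LS s → s.1.1 < s.2.1 := fun s ⟨h, hl, hne⟩ => (hl _ _ hne).1
  let Cov : Finset (Fin k × Fin k) :=
    Finset.univ.filter fun s => LS s ∧ ¬ ∃ l, LS (s.1, l) ∧ LS (l, s.2)
  -- the graph of indecomposable positions is triangle-free
  have hcov : Cov.card ≤ k * k / 4 := by
    let adj : Fin k → Fin k → Prop := fun i j => (i, j) ∈ Cov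
    let Γ : SimpleGraph (Fin k) := SimpleGraph.fromRel adj
    have hlt : ∀ i j : Fin k, (i, j) ∈ Cov → i.1 < j.1 := fun i j h => hLS _ (Finset.mem_filter.1 h).2.1
    have hor : ∀ a b : Fin k, a.1 < b.1 → Γ.Adj a b → (a, b) ∈ Cov := by
      intro a b hab h
      rcases ((SimpleGraph.fromRel_adj adj a b).1 h).2 with h' | h'
      · exact h'
      · exact absurd (hlt b a h') (by omega)
    have htri : ∀ a b c : Fin k, a.1 < b.1 → b.1 < c.1 → Γ.Adj a b → Γ.Adj b c → Γ.Adj a c → False :=
      fun a b c hab hbc h1 h2 h3 => (Finset.mem_filter.1 (hor a c (by omega) h3)).2.2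
        ⟨b, (Finset.mem_filter.1 (hor a b hab h1)).2.1, (Finset.mem_filter.1 (hor b c hbc h2)).2.1⟩
    have hcf : Γ.CliqueFree 3 := by
      intro t ht
      obtain ⟨a, b, c, hab, hac, hbc, -⟩ := SimpleGraph.is3Clique_iff.1 ht
      have n1 : a.1 ≠ b.1 := fun h => hab.ne (Fin.ext h)
      have n2 : a.1 ≠ c.1 := fun h => hac.ne (Fin.ext h)
      have n3 : b.1 ≠ c.1 := fun h => hbc.ne (Fin.ext h)
      rcases lt_or_gt_of_ne n1 with h1 | h1 <;> rcases lt_or_gt_of_ne n2 with h2 | h2 <;>
        rcases lt_or_gt_of_ne n3 with h3 | h3 <;>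
        first
          | omega
          | exact htri a b c h1 h3 hab hbc hac
          | exact htri a c b h2 h3 hac hbc.symm hab
          | exact htri b a c h1 h2 hab.symm hac hbc
          | exact htri b c a h3 h2 hbc hac.symm hab.symm
          | exact htri c a b h2 h1 hac.symm hab hbc.symm
          | exact htri c b a h3 h1 hbc.symm hab.symm hac.symm
    have hT := hcf.card_edgeFinset_le
    simp only [Fintype.card_fin] at hT
    have hc : Cov.card ≤ Γ.edgeFinset.card := by
      refine Finset.card_le_card_of_injOn (fun s => s(s.1, s.2)) (fun s hs => ?_) ?_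
      · simp only [Finset.mem_coe, SimpleGraph.mem_edgeFinset, SimpleGraph.mem_edgeSet]
        refine (SimpleGraph.fromRel_adj adj _ _).2 ⟨fun h => ?_, Or.inl hs⟩
        exact (hlt _ _ hs).ne (congrArg Fin.val h)
      · intro s hs s' hs' h
        have l1 := hlt s.1 s.2 hs
        have l2 := hlt s'.1 s'.2 hs'
        rcases Sym2.eq_iff.1 h with ⟨h1, h2⟩ | ⟨h1, h2⟩
        · exact Prod.ext h1 h2
        · rw [h1, h2] at l1; omega
    refine hc.trans (hT.trans ?_)
    rcases Nat.mod_two_eq_zero_or_one k with h | h <;> rw [h] <;> simp [pow_two]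
    omega
  -- generators
  let g : Fin k × Fin k → H := fun s => if h : LS s then h.choose else 1
  have hg : ∀ s, LS s → Lead s (g s) := fun s h => by simp only [g, dif_pos h]; exact h.choose_spec
  set K := Subgroup.closure ((Cov.image g : Finset H) : Set H) ⊔ f.ker with hK
  refine ⟨Cov.image g, Finset.card_image_le.trans hcov, ?_⟩
  apply frattini_nongenerating
  set L := K ⊔ frattini H
  rw [eq_top_iff]
  suffices key' : ∀ d m : ℕ, k * k + k ≤ m + d → ∀ h : H, Low m (f h - 1) → h ∈ L from
    fun h _ => key' (k * k + k) 0 (by omega) h (hf h)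
  intro d
  induction d with
  | zero =>
    intro m hm h hlow
    refine Subgroup.mem_sup_left (Subgroup.mem_sup_right ?_)
    rw [MonoidHom.mem_ker, ← sub_eq_zero]
    ext i j
    by_contra hne
    have h1 := (hlow i j hne).2
    have h2 : key k (i, j) < k * k + k :=
      Nat.add_lt_add_of_le_of_lt (Nat.mul_le_mul_right k (by omega)) i.2
    omega
  | succ d ihd =>
    intro m hm h hlow
    have hnext : ∀ h : H, Low m (f h - 1) → (∀ i j : Fin k, key k (i, j) = m → (f h - 1) i j = 0) →
        h ∈ L := by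
      intro h hlow hz
      refine ihd (m + 1) (by omega) h fun i j hne => ?_
      obtain ⟨h1, h2⟩ := hlow i j hne
      exact ⟨h1, Nat.lt_of_le_of_ne h2 fun he => hne (hz i j he.symm)⟩
    by_cases hz : ∀ i j : Fin k, key k (i, j) = m → (f h - 1) i j = 0
    · exact hnext h hlow hz
    push Not at hz
    obtain ⟨i, j, rfl, hne⟩ := hz
    have hij : i.1 < j.1 := (hlow i j hne).1
    -- an element of `L` with the same leading position
    obtain ⟨c, hcL, hclow, hcne⟩ : ∃ c ∈ L, Low (key k (i, j)) (f c - 1) ∧ (f c - 1) i j ≠ 0 := by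
      by_cases hdec : ∃ l, LS (i, l) ∧ LS (l, j)
      · obtain ⟨l, hl1, hl2⟩ := hdec
        obtain ⟨hA, hA1⟩ := hg _ hl1
        obtain ⟨hB, hB1⟩ := hg _ hl2
        set x := g (i, l)
        set y := g (l, j)
        set A := f x - 1
        set B := f y - 1
        have hil : i.1 < l.1 := hLS _ hl1
        have hlj : l.1 < j.1 := hLS _ hl2
        refine ⟨⁅x, y⁆, Subgroup.mem_sup_right (CfsgLib.PGroup.commutatorElement_mem_frattini hH x y), ?_⟩
        set Q := f (y * x)⁻¹ - 1
        have e : f ⁅x, y⁆ - 1 = (A * B - B * A) + (A * B - B * A) * Q := by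
          have e1 : ⁅x, y⁆ = x * y * (y * x)⁻¹ := by rw [commutatorElement_def]; group
          have e2 : f (y * x) * f (y * x)⁻¹ = 1 := by rw [← map_mul, mul_inv_cancel, map_one]
          rw [e1, map_mul, map_mul]
          calc f x * f y * f (y * x)⁻¹ - 1
              = f x * f y * f (y * x)⁻¹ - f (y * x) * f (y * x)⁻¹ := by rw [e2]
            _ = (A * B - B * A) * (1 + Q) := by
                rw [map_mul, ← sub_mul]; congr 1 <;> simp only [A, B, Q] <;> noncomm_ring
            _ = _ := by rw [mul_add, mul_one]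
        have hC : Low (key k (i, j)) (A * B - B * A) := by
          intro i' j' hne'
          refine ⟨?_, ?_⟩
          · rcases ne_or_eq ((A * B) i' j') 0 with h' | h'
            · exact ((hA.mono (Nat.zero_le _)).mul (hB.mono (Nat.zero_le _)) i' j' h').1
            · exact ((hB.mono (Nat.zero_le _)).mul (hA.mono (Nat.zero_le _)) i' j'
                (fun h'' => hne' (by rw [Matrix.sub_apply, h', h'', sub_zero]))).1
          · by_contra hlt
            have := mul_leading hil hlj hA hB (not_le.1 hlt).le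
            apply hne'
            rw [Matrix.sub_apply, this.1, this.2, sub_zero, if_neg]
            intro he
            rw [he] at hlt
            exact hlt le_rfl
        refine ⟨e ▸ hC.add (hC.mul (hf _)), ?_⟩
        rw [e, Matrix.add_apply, mul_apply_eq_zero hC (hf _) le_rfl, add_zero, Matrix.sub_apply,
          (mul_leading hil hlj hA hB le_rfl).1, (mul_leading hil hlj hA hB le_rfl).2, if_pos rfl,
          sub_zero]
        exact mul_ne_zero hA1 hB1
      · have hls : LS (i, j) := ⟨h, hlow, hne⟩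
        refine ⟨g (i, j), Subgroup.mem_sup_left (Subgroup.mem_sup_left (Subgroup.subset_closure ?_)),
          hg _ hls⟩
        exact Finset.mem_coe.2 (Finset.mem_image_of_mem g
          (Finset.mem_filter.2 ⟨Finset.mem_univ _, hls, hdec⟩))
    have hprod : ∀ h : H, Low (key k (i, j)) (f h - 1) → ∀ n : ℕ,
        Low (key k (i, j)) (f (h * c ^ n) - 1) ∧
          (f (h * c ^ n) - 1) i j = (f h - 1) i j + n * (f c - 1) i j := by
      intro h hh n
      induction n with
      | zero => simpa using hh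
      | succ n ihn =>
        have e : f (h * c ^ (n + 1)) - 1 =
            (f (h * c ^ n) - 1) + (f c - 1) + (f (h * c ^ n) - 1) * (f c - 1) := by
          rw [pow_succ, ← mul_assoc, map_mul _ (h * c ^ n) c]; noncomm_ring
        refine ⟨e ▸ (ihn.1.add hclow).add (ihn.1.mul (hf c)), ?_⟩
        rw [e, Matrix.add_apply, mul_apply_eq_zero ihn.1 (hf c) le_rfl, add_zero, Matrix.add_apply,
          ihn.2]
        push_cast
        ring
    obtain ⟨h1, h2⟩ := hprod h hlow (-((f h - 1) i j) / (f c - 1) i j).val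
    rw [ZMod.natCast_val, ZMod.cast_id', id, div_mul_cancel₀ _ hcne, add_neg_cancel] at h2
    have hmem := hnext _ h1 fun i' j' hk => by
      by_contra hne'
      have := key_inj (h1 i' j' hne').1 hij hk
      obtain ⟨rfl, rfl⟩ := Prod.mk.inj this
      exact hne' h2
    have := mul_mem hmem (inv_mem (pow_mem hcL (-((f h - 1) i j) / (f c - 1) i j).val))
    simpa using this

end CfsgLib.GeneratorBound
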