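import Cfsg.Agent.PGroup.Kulakoff

/-!
P. Hall: modulo `p ^ 2` a finite group has as many subgroups of order `p ^ a` as a Sylow
`p`-subgroup, when `p ^ (a + 1)` divides the group order.
-/

set_option autoImplicit false

open scoped Pointwise

namespace CfsgLib.PGroup

variable {p : ℕ} [Fact p.Prime] {G : Type*} [Group G] [Finite G]

omit [Fact p.Prime] in
/-- An invariant set is divisible by any common divisor of its orbit sizes. -/
theorem dvd_card_of_invariant {K X : Type*} [Group K] [MulAction K X] [Finite X] (S : X → Prop)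
    (hS : ∀ (k : K) (x : X), S x → S (k • x)) (n : ℕ)
    (h : ∀ x, S x → n ∣ Nat.card (MulAction.orbit K x)) : n ∣ Nat.card {x // S x} := by
  classical
  haveI := Fintype.ofFinite X
  let f : {x // S x} → Quotient (MulAction.orbitRel K X) := fun x => Quotient.mk'' x.1
  haveI := Fintype.ofFinite (Quotient (MulAction.orbitRel K X))
  rw [← Nat.card_congr (Equiv.sigmaFiberEquiv f), Nat.card_sigma]
  refine Finset.dvd_sum fun q _ => ?_
  by_cases hne : Nonempty {x // f x = q}
  · obtain ⟨⟨x₀, hx₀⟩, hq⟩ := hne.some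
    have : Nat.card {x // f x = q} = Nat.card (MulAction.orbit K x₀) := Nat.card_congr
      { toFun := fun x => ⟨x.1.1, by
          have := x.2.trans hq.symm
          exact MulAction.orbitRel_apply.1 (Quotient.eq''.1 this)⟩
        invFun := fun y => ⟨⟨y.1, by
            obtain ⟨k, hk⟩ := y.2
            rw [← hk]; exact hS k x₀ hx₀⟩, by
            refine Eq.trans ?_ hq
            exact Quotient.eq''.2 (MulAction.orbitRel_apply.2 y.2)⟩
        left_inv := fun x => rfl
        right_inv := fun y => rfl }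
    rw [this]
    exact h x₀ hx₀
  · haveI := not_nonempty_iff.1 hne
    simp

theorem smul_subgroup_eq_iff {g : G} {H : Subgroup G} :
    MulAut.conj g • H = H ↔ g ∈ Subgroup.normalizer (H : Set G) := by
  rw [Subgroup.mem_normalizer_iff]
  constructor
  · intro h x
    constructor
    · intro hx
      rw [← h]
      exact ⟨x, hx, by simp⟩
    · intro hx
      rw [← h] at hx
      obtain ⟨y, hy, hy'⟩ := hx
      simp only [MulDistribMulAction.toMonoidEnd_apply, MulDistribMulAction.toMonoidHom_apply,
        MulAut.smul_def, MulAut.conj_apply, mul_left_inj, mul_right_inj] at hy'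
      exact hy' ▸ hy
  · intro h
    ext x
    rw [Subgroup.mem_pointwise_smul_iff_inv_smul_mem, ← map_inv, MulAut.smul_def, MulAut.conj_apply,
      inv_inv, h]
    simp [mul_assoc]

theorem card_sylow_pos {a : ℕ} (hdvd : p ^ (a + 1) ∣ Nat.card G) :
    a + 1 ≤ (Nat.card G).factorization p :=
  ((Fact.out : p.Prime).pow_dvd_iff_le_factorization Nat.card_pos.ne').1 hdvd

/-- The subgroups of order `p ^ a` normal in a Sylow subgroup and outside a given maximal subgroup
of it are divisible by `p` in number. -/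
theorem dvd_card_normal_not_le {a : ℕ} {R Q : Subgroup G} (hR : IsPGroup p R) (hQR : Q ≤ R)
    (hQn : R ≤ Subgroup.normalizer (Q : Set G)) (hQ : p ^ a ∣ Nat.card Q) :
    p ∣ Nat.card {H : Subgroup G //
      Nat.card H = p ^ a ∧ H ≤ R ∧ R ≤ Subgroup.normalizer (H : Set G) ∧ ¬ H ≤ Q} := by
  classical
  have hp : p.Prime := Fact.out
  let S := {H : Subgroup G // Nat.card H = p ^ a ∧ H ≤ R ∧ ¬ H ≤ Q}
  letI : MulAction R S :=
    { smul := fun r H => ⟨MulAut.conj (r : G) • H.1,
        by rw [← Nat.card_congr (Subgroup.equivSMul (MulAut.conj (r : G)) H.1).toEquiv]; exact H.2.1,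
        Subgroup.conj_smul_le_of_le H.2.2.1 r,
        fun h => H.2.2.2 (by
          have h1 : MulAut.conj (r : G) • Q = Q := smul_subgroup_eq_iff.2 (hQn r.2)
          exact (Subgroup.pointwise_smul_le_pointwise_smul_iff).1 (h.trans h1.ge))⟩
      one_smul := fun H => Subtype.ext (show MulAut.conj ((1 : R) : G) • H.1 = H.1 by simp)
      mul_smul := fun r r' H => Subtype.ext
        (show MulAut.conj ((r * r' : R) : G) • H.1 = _ • (_ • H.1) by
          rw [Subgroup.coe_mul, map_mul, mul_smul]) }
  have e : Nat.card (MulAction.fixedPoints R S) = Nat.card {H : Subgroup G //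
      Nat.card H = p ^ a ∧ H ≤ R ∧ R ≤ Subgroup.normalizer (H : Set G) ∧ ¬ H ≤ Q} := Nat.card_congr
    { toFun := fun H => ⟨H.1.1, H.1.2.1, H.1.2.2.1,
        fun r hr => smul_subgroup_eq_iff.1 (congrArg Subtype.val (H.2 ⟨r, hr⟩)), H.1.2.2.2⟩
      invFun := fun H => ⟨⟨H.1, H.2.1, H.2.2.1, H.2.2.2.2⟩,
        fun r => Subtype.ext (smul_subgroup_eq_iff.2 (H.2.2.2.1 r.2))⟩
      left_inv := fun H => rfl
      right_inv := fun H => rfl }
  rw [← e, ← Nat.modEq_zero_iff_dvd]
  refine (hR.card_modEq_card_fixedPoints S).symm.trans ?_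
  have h1 := CfsgLib.PGroup54.card_subgroup_modEq_one p a hp (G := R)
    (hQ.trans (Subgroup.card_dvd_of_le hQR))
  have h2 := CfsgLib.PGroup54.card_subgroup_modEq_one p a hp (G := Q) hQ
  have h3 := numSub_eq_card_le R (p ^ a)
  have h4 := numSub_eq_card_le Q (p ^ a)
  have hsum : numSub Q (p ^ a) + Nat.card S = numSub R (p ^ a) := by
    rw [h3, h4, ← Nat.card_congr (Equiv.sumCompl fun H :
      {H : {H : Subgroup G // Nat.card H = p ^ a} // H.1 ≤ R} => H.1.1 ≤ Q), Nat.card_sum]
    congr 1
    · exact Nat.card_congr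
        { toFun := fun H => ⟨⟨H.1, le_trans H.2 hQR⟩, H.2⟩
          invFun := fun H => ⟨H.1.1, H.2⟩
          left_inv := fun H => rfl
          right_inv := fun H => rfl }
    · exact Nat.card_congr
        { toFun := fun H => ⟨⟨⟨H.1, H.2.1⟩, H.2.2.1⟩, H.2.2.2⟩
          invFun := fun H => ⟨H.1.1.1, H.1.1.2, H.1.2, H.2⟩
          left_inv := fun H => rfl
          right_inv := fun H => rfl }
  refine Nat.ModEq.add_left_cancel (show numSub Q (p ^ a) ≡ numSub Q (p ^ a) [MOD p] from rfl) ?_
  rw [hsum, add_zero]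
  exact h1.trans h2.symm

/-- P. Hall's congruence. -/
theorem numSub_modEq_sylow {a : ℕ} (P : Sylow p G) (hdvd : p ^ (a + 1) ∣ Nat.card G) :
    numSub G (p ^ a) ≡ numSub (P : Subgroup G) (p ^ a) [MOD p ^ 2] := by
  classical
  have hp : p.Prime := Fact.out
  have hb := card_sylow_pos hdvd
  set b := (Nat.card G).factorization p with hbdef
  have hpb : p ^ b = p ^ (b - 1) * p := by rw [← pow_succ]; congr 1; omega
  have hPc : Nat.card (P : Subgroup G) = p ^ b := P.card_eq_multiplicity
  let X := {H : Subgroup G // Nat.card H = p ^ a}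
  letI : MulAction (P : Subgroup G) X :=
    { smul := fun r H => ⟨MulAut.conj (r : G) • H.1,
        (Nat.card_congr (Subgroup.equivSMul (MulAut.conj (r : G)) H.1).toEquiv).symm.trans H.2⟩
      one_smul := fun H => Subtype.ext
        (show MulAut.conj ((1 : (P : Subgroup G)) : G) • H.1 = H.1 by simp)
      mul_smul := fun r r' H => Subtype.ext
        (show MulAut.conj ((r * r' : (P : Subgroup G)) : G) • H.1 = _ • (_ • H.1) by
          rw [Subgroup.coe_mul, map_mul, mul_smul]) }
  have hsmul : ∀ (r : (P : Subgroup G)) (H : X), (r • H).1 = MulAut.conj (r : G) • H.1 :=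
    fun r H => rfl
  have hleP : ∀ (r : (P : Subgroup G)) (H : X), (r • H).1 ≤ P ↔ H.1 ≤ P := by
    intro r H
    have h1 : MulAut.conj (r : G) • (P : Subgroup G) = P :=
      Subgroup.conj_smul_eq_self_of_mem r.2
    rw [hsmul]
    exact ⟨fun h => Subgroup.pointwise_smul_le_pointwise_smul_iff.1 (h.trans h1.ge),
      fun h => (Subgroup.pointwise_smul_le_pointwise_smul_iff.2 h).trans h1.le⟩
  -- stabilisers in `P`
  have hstab : ∀ H : X, Nat.card (MulAction.orbit (P : Subgroup G) H) =
      (Subgroup.normalizer (H.1 : Set G)).relIndex P := by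
    intro H
    rw [Nat.card_congr (MulAction.orbitEquivQuotientStabilizer _ H), ← Subgroup.index_eq_card,
      Subgroup.relIndex]
    congr 1
    ext r
    rw [MulAction.mem_stabilizer_iff, Subtype.ext_iff, hsmul, smul_subgroup_eq_iff]
    rfl
  -- a subgroup normalised by all of `P` lies in `P`
  have hno : ∀ H : X, (P : Subgroup G) ≤ Subgroup.normalizer (H.1 : Set G) → H.1 ≤ P := by
    intro H hle
    have h1 := P.3 (IsPGroup.to_sup_of_normal_right' P.2 (IsPGroup.of_card H.2) hle) le_sup_left
    exact h1 ▸ le_sup_right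
  let Y := {H : X // ¬ H.1 ≤ P}
  have hsplit : numSub G (p ^ a) = numSub (P : Subgroup G) (p ^ a) + Nat.card Y := by
    rw [numSub_eq_card_le (P : Subgroup G), ← Nat.card_sum]
    exact (Nat.card_congr (Equiv.sumCompl fun H : X => H.1 ≤ P)).symm
  have hY : p ^ 2 ∣ Nat.card Y := by
    have hsmall : p ^ 2 ∣ Nat.card {H : X // ¬ H.1 ≤ P ∧
        (Subgroup.normalizer (H.1 : Set G)).relIndex P ≠ p} := by
      refine dvd_card_of_invariant (K := (P : Subgroup G)) (fun H : X => ¬ H.1 ≤ P ∧
        (Subgroup.normalizer (H.1 : Set G)).relIndex P ≠ p) (fun r H hH => ⟨?_, ?_⟩) (p ^ 2)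
        (fun H hH => ?_)
      · rw [hleP]; exact hH.1
      · rw [← hstab, show MulAction.orbit (P : Subgroup G) (r • H) =
          MulAction.orbit (P : Subgroup G) H from MulAction.orbit_smul r H, hstab]
        exact hH.2
      · rw [hstab]
        have hd : (Subgroup.normalizer (H.1 : Set G)).relIndex P ∣ p ^ b := by
          rw [← hPc]; exact Subgroup.index_dvd_card _
        obtain ⟨i, hi, hi'⟩ := (Nat.dvd_prime_pow hp).1 hd
        rw [hi']
        refine pow_dvd_pow p ?_
        by_contra hlt
        rcases (show i = 0 ∨ i = 1 by omega) with rfl | rfl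
        · exact hH.1 (hno H (Subgroup.relIndex_eq_one.1 (by rw [hi', pow_zero])))
        · exact hH.2 (by rw [hi', pow_one])
    have hbig : p ^ 2 ∣ Nat.card {H : X // ¬ H.1 ≤ P ∧
        (Subgroup.normalizer (H.1 : Set G)).relIndex P = p} := by
      haveI := Fintype.ofFinite (Subgroup G)
      let f : {H : X // ¬ H.1 ≤ P ∧ (Subgroup.normalizer (H.1 : Set G)).relIndex P = p} →
          Subgroup G := fun H => Subgroup.normalizer (H.1.1 : Set G) ⊓ P
      rw [← Nat.card_congr (Equiv.sigmaFiberEquiv f), Nat.card_sigma]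
      refine Finset.dvd_sum fun Q _ => ?_
      by_cases hne : Nonempty {H // f H = Q}
      swap
      · haveI := not_nonempty_iff.1 hne
        simp
      obtain ⟨⟨H₀, hH₀⟩, hQ₀⟩ := hne.some
      have hQP : Q ≤ P := hQ₀ ▸ inf_le_right
      have hQidx : Q.relIndex P = p := by
        rw [← hQ₀]
        show (Subgroup.normalizer (H₀.1 : Set G) ⊓ P).relIndex P = p
        rw [Subgroup.inf_relIndex_right]; exact hH₀.2
      have hQc : Nat.card Q = p ^ (b - 1) := by
        have h1 := Subgroup.card_mul_index (Q.subgroupOf P)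
        rw [Nat.card_congr (Subgroup.subgroupOfEquivOfLe hQP).toEquiv,
          show (Q.subgroupOf (P : Subgroup G)).index = p from hQidx, hPc, hpb] at h1
        exact Nat.eq_of_mul_eq_mul_right hp.pos h1
      -- the fibre
      let F := {H : X // ¬ H.1 ≤ P ∧ Q ≤ Subgroup.normalizer (H.1 : Set G)}
      have eF : Nat.card {H // f H = Q} = Nat.card F := by
        refine Nat.card_congr
          { toFun := fun H => ⟨H.1.1, H.1.2.1, (show f H.1 = Q from H.2).ge.trans inf_le_left⟩
            invFun := fun H => ⟨⟨H.1, H.2.1, ?_⟩, ?_⟩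
            left_inv := fun H => rfl
            right_inv := fun H => rfl }
        · have hd : (Subgroup.normalizer (H.1.1 : Set G)).relIndex P ∣ p :=
            (Subgroup.relIndex_dvd_of_le_left _ H.2.2).trans (dvd_of_eq hQidx)
          exact ((Nat.dvd_prime hp).1 hd).resolve_left fun h =>
            H.2.1 (hno H.1 (Subgroup.relIndex_eq_one.1 h))
        · show Subgroup.normalizer (H.1.1 : Set G) ⊓ P = Q
          have hd : (Subgroup.normalizer (H.1.1 : Set G)).relIndex P ∣ p :=
            (Subgroup.relIndex_dvd_of_le_left _ H.2.2).trans (dvd_of_eq hQidx)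
          have hd' := ((Nat.dvd_prime hp).1 hd).resolve_left fun h =>
            H.2.1 (hno H.1 (Subgroup.relIndex_eq_one.1 h))
          refine (Subgroup.eq_of_le_of_card_ge (le_inf H.2.2 hQP) (le_of_eq ?_)).symm
          have h1 := Subgroup.card_mul_index
            ((Subgroup.normalizer (H.1.1 : Set G) ⊓ P).subgroupOf (P : Subgroup G))
          rw [Nat.card_congr (Subgroup.subgroupOfEquivOfLe inf_le_right).toEquiv] at h1
          change Nat.card _ * (Subgroup.normalizer (H.1.1 : Set G) ⊓ P).relIndex P = _ at h1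
          rw [Subgroup.inf_relIndex_right, hd', hPc, hpb] at h1
          rw [Nat.eq_of_mul_eq_mul_right hp.pos h1, hQc]
      rw [eF]
      -- the Sylow subgroups over `Q`
      let T := {R : Sylow p G // Q ≤ (R : Subgroup G)}
      have hQnR : ∀ R : Sylow p G, Q ≤ (R : Subgroup G) →
          (R : Subgroup G) ≤ Subgroup.normalizer (Q : Set G) := by
        intro R hR
        have hRc : Nat.card (R : Subgroup G) = p ^ b := R.card_eq_multiplicity
        have hidx : (Q.subgroupOf (R : Subgroup G)).index = p := by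
          have h1 := Subgroup.card_mul_index (Q.subgroupOf (R : Subgroup G))
          rw [Nat.card_congr (Subgroup.subgroupOfEquivOfLe hR).toEquiv, hQc, hRc] at h1
          refine Nat.eq_of_mul_eq_mul_left (pow_pos hp.pos (b - 1)) (h1.trans ?_)
          rw [← pow_succ]; congr 1; omega
        exact (Subgroup.normal_subgroupOf_iff_le_normalizer hR).1
          (normal_of_coatom R.2 (isCoatom_of_index_eq hidx))
      let c : T → ℕ := fun R => Nat.card {H : Subgroup G // Nat.card H = p ^ a ∧
        H ≤ (R.1 : Subgroup G) ∧ (R.1 : Subgroup G) ≤ Subgroup.normalizer (H : Set G) ∧ ¬ H ≤ Q}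
      have hc : ∀ R : T, p ∣ c R := fun R =>
        dvd_card_normal_not_le R.1.2 R.2 (hQnR R.1 R.2)
          (hQc ▸ pow_dvd_pow p (show a ≤ b - 1 by omega))
      have hconst : ∀ R R' : T, c R = c R' := by
        intro R R'
        obtain ⟨g, hg⟩ := MulAction.exists_smul_eq (Subgroup.normalizer (Q : Set G))
          (R.1.subtype (hQnR R.1 R.2)) (R'.1.subtype (hQnR R'.1 R'.2))
        rw [Sylow.smul_subtype] at hg
        have hg' : (g : G) • R.1 = R'.1 := Sylow.subtype_injective hg
        have hgR : MulAut.conj (g : G) • (R.1 : Subgroup G) = (R'.1 : Subgroup G) := by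
          rw [← hg']; rfl
        have hgQ : MulAut.conj (g : G) • Q = Q := smul_subgroup_eq_iff.2 g.2
        refine Nat.card_congr (Equiv.subtypeEquiv (MulAction.toPerm (MulAut.conj (g : G))) fun H => ?_)
        show (Nat.card H = p ^ a ∧ H ≤ (R.1 : Subgroup G) ∧
          (R.1 : Subgroup G) ≤ Subgroup.normalizer (H : Set G) ∧ ¬ H ≤ Q) ↔
          (Nat.card ↥(MulAut.conj (g : G) • H) = p ^ a ∧ MulAut.conj (g : G) • H ≤ (R'.1 : Subgroup G) ∧
          (R'.1 : Subgroup G) ≤ Subgroup.normalizer (↑(MulAut.conj (g : G) • H) : Set G) ∧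
          ¬ MulAut.conj (g : G) • H ≤ Q)
        rw [← Nat.card_congr (Subgroup.equivSMul (MulAut.conj (g : G)) H).toEquiv]
        have hn : MulAut.conj (g : G) • Subgroup.normalizer (H : Set G) =
            Subgroup.normalizer (↑(MulAut.conj (g : G) • H) : Set G) := by
          ext x
          rw [Subgroup.mem_pointwise_smul_iff_inv_smul_mem, ← smul_subgroup_eq_iff,
            ← smul_subgroup_eq_iff, ← map_inv, MulAut.smul_def, MulAut.conj_apply, inv_inv,
            map_mul, map_mul, mul_smul, mul_smul, map_inv, inv_smul_eq_iff]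
        constructor
        · rintro ⟨h1, h2, h3, h4⟩
          refine ⟨h1, hgR ▸ Subgroup.pointwise_smul_le_pointwise_smul_iff.2 h2, ?_, fun h => h4 ?_⟩
          · rw [← hn, ← hgR]; exact Subgroup.pointwise_smul_le_pointwise_smul_iff.2 h3
          · exact Subgroup.pointwise_smul_le_pointwise_smul_iff.1 (h.trans hgQ.ge)
        · rintro ⟨h1, h2, h3, h4⟩
          rw [← hgR] at h2 h3
          rw [← hn] at h3
          refine ⟨h1, Subgroup.pointwise_smul_le_pointwise_smul_iff.1 h2,
            Subgroup.pointwise_smul_le_pointwise_smul_iff.1 h3, fun h => h4 ?_⟩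
          exact (Subgroup.pointwise_smul_le_pointwise_smul_iff.2 h).trans hgQ.le
      haveI := Fintype.ofFinite T
      have hTcard : Nat.card T ≡ 1 [MOD p] := by
        refine Nat.ModEq.trans ?_ (card_sylow_modEq_one p G)
        refine Nat.ModEq.trans ?_
          ((IsPGroup.to_le P.2 hQP).card_modEq_card_fixedPoints (Sylow p G)).symm
        refine congrArg (· % p) (Nat.card_congr (Equiv.subtypeEquivRight fun R => ?_))
        exact ((IsPGroup.to_le P.2 hQP).sylow_mem_fixedPoints_iff).symm
      -- join with `Q`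
      have hjoin : ∀ H : F, ∃ R : T, (R.1 : Subgroup G) = Q ⊔ H.1.1 ∧ R.1 ≠ P := by
        intro H
        have hpg : IsPGroup p ↥(Q ⊔ H.1.1) :=
          IsPGroup.to_sup_of_normal_right' (IsPGroup.to_le P.2 hQP) (IsPGroup.of_card H.1.2) H.2.2
        obtain ⟨R, hR⟩ := hpg.exists_le_sylow
        have hQR : Q ≤ (R : Subgroup G) := le_sup_left.trans hR
        refine ⟨⟨R, hQR⟩, ?_, fun he => H.2.1 ?_⟩
        · refine (Subgroup.eq_of_le_of_card_ge hR ?_).symm
          have hlt : Q < Q ⊔ H.1.1 := lt_of_le_of_ne le_sup_left fun he =>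
            H.2.1 ((le_sup_right.trans he.ge).trans hQP)
          obtain ⟨i, hi⟩ := IsPGroup.iff_card.1 hpg
          have h9 := Set.ncard_lt_ncard (SetLike.coe_ssubset_coe.2 hlt) (Set.toFinite _)
          rw [← Nat.card_coe_set_eq, ← Nat.card_coe_set_eq] at h9
          change Nat.card Q < Nat.card ↥(Q ⊔ H.1.1) at h9
          rw [hQc, hi, Nat.pow_lt_pow_iff_right hp.one_lt] at h9
          rw [show Nat.card (R : Subgroup G) = p ^ b from R.card_eq_multiplicity, hi]
          exact Nat.pow_le_pow_right hp.pos (by omega)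
        · exact le_sup_right.trans (hR.trans (by rw [show R = P from he]))
      choose g hg hgP using hjoin
      let g' : F → {R : T // R.1 ≠ P} := fun H => ⟨g H, hgP H⟩
      haveI := Fintype.ofFinite {R : T // R.1 ≠ P}
      rw [← Nat.card_congr (Equiv.sigmaFiberEquiv g'), Nat.card_sigma]
      have hfib : ∀ R : {R : T // R.1 ≠ P}, Nat.card {H // g' H = R} = c R.1 := by
        intro R
        refine Nat.card_congr
          { toFun := fun H => ⟨H.1.1.1, H.1.1.2, ?_, ?_, fun h => H.1.2.1 (h.trans hQP)⟩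
            invFun := fun H => ⟨⟨⟨H.1, H.2.1⟩, fun h => ?_, ?_⟩, ?_⟩
            left_inv := fun H => rfl
            right_inv := fun H => rfl }
        · rw [← show g H.1 = R.1 from congrArg Subtype.val H.2, hg]; exact le_sup_right
        · rw [← show g H.1 = R.1 from congrArg Subtype.val H.2, hg]
          exact sup_le H.1.2.2 Subgroup.le_normalizer
        · -- a subgroup of `P` in `R` outside `Q` would give `R = P`
          refine R.2 (Sylow.ext ?_)
          have hle : Q ⊔ H.1 ≤ (R.1.1 : Subgroup G) ⊓ P :=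
            sup_le (le_inf R.1.2 hQP) (le_inf H.2.2.1 h)
          have hlt : Q < (R.1.1 : Subgroup G) ⊓ P := lt_of_le_of_ne (le_sup_left.trans hle) fun he =>
            H.2.2.2.2 ((le_sup_right.trans hle).trans he.ge)
          obtain ⟨i, hi⟩ := IsPGroup.iff_card.1 (IsPGroup.to_le P.2 (inf_le_right :
            (R.1.1 : Subgroup G) ⊓ P ≤ P))
          have h9 := Set.ncard_lt_ncard (SetLike.coe_ssubset_coe.2 hlt) (Set.toFinite _)
          rw [← Nat.card_coe_set_eq, ← Nat.card_coe_set_eq] at h9
          change Nat.card Q < Nat.card ↥((R.1.1 : Subgroup G) ⊓ P) at h9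
          rw [hQc, hi, Nat.pow_lt_pow_iff_right hp.one_lt] at h9
          have hcle : p ^ b ≤ Nat.card ↥((R.1.1 : Subgroup G) ⊓ P) :=
            hi ▸ Nat.pow_le_pow_right hp.pos (by omega)
          exact (Subgroup.eq_of_le_of_card_ge inf_le_left
            (R.1.1.card_eq_multiplicity ▸ hcle)).symm.trans
            (Subgroup.eq_of_le_of_card_ge inf_le_right (hPc ▸ hcle))
        · exact R.1.2.trans H.2.2.2.1
        · refine Subtype.ext (Subtype.ext (Sylow.ext ?_))
          show ((g _).1 : Subgroup G) = (R.1.1 : Subgroup G)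
          rw [hg]
          refine Subgroup.eq_of_le_of_card_ge (sup_le R.1.2 H.2.2.1) ?_
          have hlt : Q < Q ⊔ H.1 := lt_of_le_of_ne le_sup_left fun he =>
            H.2.2.2.2 (le_sup_right.trans he.ge)
          obtain ⟨i, hi⟩ := IsPGroup.iff_card.1
            (IsPGroup.to_le R.1.1.2 (sup_le R.1.2 H.2.2.1) : IsPGroup p ↥(Q ⊔ H.1))
          have h9 := Set.ncard_lt_ncard (SetLike.coe_ssubset_coe.2 hlt) (Set.toFinite _)
          rw [← Nat.card_coe_set_eq, ← Nat.card_coe_set_eq] at h9
          change Nat.card Q < Nat.card ↥(Q ⊔ H.1) at h9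
          rw [hQc, hi, Nat.pow_lt_pow_iff_right hp.one_lt] at h9
          exact (le_of_eq R.1.1.card_eq_multiplicity).trans
            ((Nat.pow_le_pow_right hp.pos (by omega : b ≤ i)).trans hi.ge)
      let P' : T := ⟨P, hQP⟩
      rw [Finset.sum_congr rfl (fun R _ => (hfib R).trans (hconst R.1 P')), Finset.sum_const,
        Finset.card_univ, smul_eq_mul, sq]
      refine mul_dvd_mul ?_ (hc P')
      have h1 : Nat.card {R : T // R.1 ≠ P} + 1 = Nat.card T := by
        rw [← Nat.card_congr (Equiv.sumCompl fun R : T => R.1 ≠ P), Nat.card_sum]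
        congr 1
        exact (Nat.card_eq_one_iff_exists.2 ⟨⟨P', fun h => h rfl⟩, fun R =>
          Subtype.ext (Subtype.ext (not_not.1 R.2))⟩).symm
      rw [← Nat.card_eq_fintype_card, ← Nat.modEq_zero_iff_dvd]
      refine Nat.ModEq.add_right_cancel' 1 ?_
      rw [h1, zero_add]
      exact hTcard
    rw [← Nat.card_congr (Equiv.sumCompl fun H : Y =>
      (Subgroup.normalizer (H.1.1 : Set G)).relIndex P = p), Nat.card_sum,
      Nat.card_congr (Equiv.subtypeSubtypeEquivSubtypeInter (fun H : X => ¬ H.1 ≤ P)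
        (fun H => (Subgroup.normalizer (H.1 : Set G)).relIndex P = p)),
      Nat.card_congr (Equiv.subtypeSubtypeEquivSubtypeInter (fun H : X => ¬ H.1 ≤ P)
        (fun H => ¬ (Subgroup.normalizer (H.1 : Set G)).relIndex P = p))]
    exact dvd_add hbig hsmall
  rw [hsplit]
  exact (Nat.modEq_zero_iff_dvd.2 hY).add_left _

end CfsgLib.PGroup
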